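import Cfsg.Agent.H771.KTools
import Cfsg.Agent.H413.JOneSpec

/-!
# `12 ≤ k(G)` for `G = J1` (helper771)
-/

set_option autoImplicit false

namespace Cfsg.Agent.H771.KJ1

open Subgroup Cfsg Cfsg.Agent.H92.KTools Cfsg.Agent.H771.KTools

theorem j1_model : 12 ≤ Nat.card (ConjClasses Spor.J1) := by
  have hfin : Finite Spor.J1 := Nat.finite_of_card_ne_zero (by
    rw [H413.JOneLocal.card_J1]; norm_num)
  have h4 : ¬ HasOrd Spor.J1 4 := fun h => by
    have := (H413.JOneSpec.exists_orderOf_iff 4).1 h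
    revert this
    decide
  have hall : ∀ n ∈ ({1, 2, 3, 5, 6, 7, 10, 11, 15, 19} : Finset ℕ), HasOrd Spor.J1 n :=
    fun n hn => (H413.JOneSpec.exists_orderOf_iff n).2 hn
  refine le_trans (by decide) (sum_le (G := Spor.J1) {1, 2, 3, 5, 6, 7, 10, 11, 15, 19}
    (fun n => if n = 5 ∨ n = 10 ∨ n = 15 then 2 else 1) ?_)
  intro n hn
  obtain ⟨g, hg⟩ := hall n hn
  by_cases h : n = 5 ∨ n = 10 ∨ n = 15
  · have key : ∃ j, n.Coprime j ∧ (j % 5 = 2 ∨ j % 5 = 3) ∧ ∃ m, n = m * 5 ∧ 0 < m := by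
      rcases h with rfl | rfl | rfl
      · exact ⟨2, by decide, by decide, 1, by norm_num⟩
      · exact ⟨3, by decide, by decide, 2, by norm_num⟩
      · exact ⟨2, by decide, by decide, 3, by norm_num⟩
    obtain ⟨j, hj, hj5, m, hm, hm0⟩ := key
    refine ⟨[g, g ^ j], by simp [h], ?_, ?_⟩
    · have h1 : orderOf (g ^ j) = n := by rw [Nat.Coprime.orderOf_pow (by rw [hg]; exact hj), hg]
      simp [hg, h1]
    · simp only [List.pairwise_cons, List.mem_singleton, forall_eq, List.not_mem_nil, false_imp_iff,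
        implies_true, List.Pairwise.nil, and_true]
      intro hc
      have h5 : orderOf (g ^ m) = 5 := by
        rw [orderOf_pow_of_dvd hm0.ne' (by rw [hg, hm]; exact dvd_mul_right m 5), hg, hm,
          Nat.mul_div_cancel_left 5 hm0]
      refine not_conj_five h4 h5 hj5 ?_
      have := pow_conj hc m
      rwa [← pow_mul, mul_comm, pow_mul] at this
  · exact ⟨[g], by simp [h], by simpa using hg, by simp⟩

theorem j1 {S : Type*} [Group S] (h : Spor.IsoJ1 S) : 12 ≤ Nat.card (ConjClasses S) := by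
  obtain ⟨e⟩ := h
  rw [card_classes_congr e]
  exact j1_model

end Cfsg.Agent.H771.KJ1
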