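import Cfsg.Agent.H771.KTools
import Cfsg.Agent.KFacts.J4.SheetJ4
import Cfsg.Agent.SporadicA.MathieuRecog
import Cfsg.Agent.NotCT.Orders

/-!
# `12 ≤ k(G)` for `G = J4` (helper771)
-/

set_option autoImplicit false

namespace Cfsg.Agent.H771.KJ4

open Subgroup Cfsg Cfsg.Agent.H92.KTools Cfsg.Agent.H771.KTools

theorem j4 {S : Type*} [Group S] (h : Spor.IsoJ4 S) : 12 ≤ Nat.card (ConjClasses S) := by
  have hcard := NotCT.Orders.j4 h
  have hfin : Finite S := Nat.finite_of_card_ne_zero (by rw [hcard]; norm_num)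
  obtain ⟨h1, h2, ⟨F⟩⟩ := KFacts.J4.Base.exists_full h
  have hs := KFacts.J4.SheetJ4.sheet F
  have h3 : Nat.card Spor.M22 ∣ Nat.card (centralizer ({F.C.z} : Set S)) :=
    (Subgroup.card_dvd_of_surjective _ (KFacts.J4.AutP.pi_surjective F.C.toCent)).trans
      (Subgroup.card_dvd_of_le (KFacts.J4.Base.MM_le _))
  have h6 : HasOrd S 6 := two_mul_prime hs.zz hs.z1 (p := 3) (by norm_num) (by norm_num) (dvd_trans (by
    rw [SporadicA.MathieuRecog.card_M22]; norm_num) h3)
  refine le_trans (by decide) (orders_le (G := S) {1, 2, 3, 5, 7, 11, 23, 29, 31, 37, 43, 6} ?_)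
  have hd : ∀ p, p.Prime → p ∣ 86775571046077562880 → HasOrd S p := fun p hp hd => hasOrd_prime hp (by rwa [hcard])
  intro m hm
  simp only [Finset.mem_insert, Finset.mem_singleton] at hm
  rcases hm with rfl | rfl | rfl | rfl | rfl | rfl | rfl | rfl | rfl | rfl | rfl | rfl
  · exact hasOrd_one S
  · exact hd 2 (by norm_num) (by norm_num)
  · exact hd 3 (by norm_num) (by norm_num)
  · exact hd 5 (by norm_num) (by norm_num)
  · exact hd 7 (by norm_num) (by norm_num)
  · exact hd 11 (by norm_num) (by norm_num)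
  · exact hd 23 (by norm_num) (by norm_num)
  · exact hd 29 (by norm_num) (by norm_num)
  · exact hd 31 (by norm_num) (by norm_num)
  · exact hd 37 (by norm_num) (by norm_num)
  · exact hd 43 (by norm_num) (by norm_num)
  · exact h6

end Cfsg.Agent.H771.KJ4
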