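import Cfsg.Agent.H771.KTools
import Cfsg.Agent.OddHalf.D9.Ru.XCover
import Cfsg.Agent.KFacts.Ru.PackD
import Cfsg.Agent.RuB.Local
import Cfsg.Agent.NotCT.Orders
import Cfsg.Agent.FooteRow.Ru

/-!
# `12 ≤ k(G)` for `G = Ru` (helper771)
-/

set_option autoImplicit false

namespace Cfsg.Agent.H771.KRu

open Subgroup Cfsg Cfsg.Agent.H92.KTools Cfsg.Agent.H771.KTools
open Cfsg.Agent.KFacts.Ru Cfsg.Agent.RuD.Letters Cfsg.Agent.RuD.Model Cfsg.Agent.SporadicB

theorem ru {G : Type*} [Group G] (h : Spor.IsoRu G) : 12 ≤ Nat.card (ConjClasses G) := by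
  have hcard := NotCT.Orders.ru h
  have hfin : Finite G := Nat.finite_of_card_ne_zero (by rw [hcard]; norm_num)
  obtain ⟨C, -⟩ := exists_core h
  obtain ⟨a, ha⟩ : ∃ a : RuB.A4, a ≠ 0 := ⟨1, by decide⟩
  have hv1 : C.v a ≠ 1 := fun h => ha (C.v_eq_one h)
  have hcv := RuB.Local.card_cent_v (C := C) ha
  have h26 : ∀ p, p.Prime → p ≠ 2 → p ∣ 4 * 29120 → HasOrd G (2 * p) := fun p hp hp2 hd =>
    two_mul_prime (C.v_sq a) hv1 hp hp2 (by rwa [hcv])
  have h4 : HasOrd G 4 := four (a := C.U 1 1) (z := C.z 1) (by rw [C.U_sq, one_pow]) (C.z_sq 1) (fun h => by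
    have := C.z_eq_one h
    exact absurd this one_ne_zero)
  have h6 : HasOrd G 6 := by
    obtain ⟨e⟩ := h
    refine HasOrd.of_equiv (H := RuOrder.H) ?_ (e.trans RuLat.Main.equiv).symm
    have hfH : Finite RuOrder.H := Finite.of_equiv _ (e.trans RuLat.Main.equiv).toEquiv
    exact two_mul_prime KFacts.Ru.PackD.loc.zz KFacts.Ru.PackD.loc.z1 (p := 3) (by norm_num) (by norm_num) (by
      rw [OddHalf.D9.Ru.XCover.card_cent]; norm_num)
  have hd : ∀ p, p.Prime → p ∣ 145926144000 → HasOrd G p := fun p hp hd => hasOrd_prime hp (by rwa [hcard])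
  refine le_trans (by decide) (orders_le (G := G) {1, 2, 3, 5, 7, 13, 29, 4, 6, 10, 14, 26} ?_)
  intro m hm
  simp only [Finset.mem_insert, Finset.mem_singleton] at hm
  rcases hm with rfl | rfl | rfl | rfl | rfl | rfl | rfl | rfl | rfl | rfl | rfl | rfl
  · exact hasOrd_one G
  · exact hd 2 (by norm_num) (by norm_num)
  · exact hd 3 (by norm_num) (by norm_num)
  · exact hd 5 (by norm_num) (by norm_num)
  · exact hd 7 (by norm_num) (by norm_num)
  · exact hd 13 (by norm_num) (by norm_num)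
  · exact hd 29 (by norm_num) (by norm_num)
  · exact h4
  · exact h6
  · exact h26 5 (by norm_num) (by norm_num) (by norm_num)
  · exact h26 7 (by norm_num) (by norm_num) (by norm_num)
  · exact h26 13 (by norm_num) (by norm_num) (by norm_num)

end Cfsg.Agent.H771.KRu
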