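import Cfsg.Agent.H771.KTools
import Cfsg.Agent.KFacts.SuzTwoB
import Cfsg.Agent.KFacts.SuzSheetE
import Cfsg.Agent.NotCT.Orders

/-!
# `12 ≤ k(G)` for `G = Suz` (helper771)
-/

set_option autoImplicit false

namespace Cfsg.Agent.H771.KSuz

open Subgroup Cfsg Cfsg.Agent.H92.KTools Cfsg.Agent.H771.KTools
open Cfsg.Agent.SuzThree.CentA Cfsg.Agent.SuzThree.QZero Cfsg.Agent.KFacts.SuzCent Cfsg.Agent.KFacts.SuzLFour

theorem suz_model : 12 ≤ Nat.card (ConjClasses Spor.Suz) := by
  have hcard := NotCT.Orders.suz (K := Spor.Suz) ⟨MulEquiv.refl _⟩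
  have hfin : Finite Spor.Suz := KFacts.SuzSheetE.finite_suz
  have h1 : Nat.card (centralizer ({z0} : Set Spor.Suz)) = 3317760 := card_C1
  have h2 : Nat.card (centralizer ({e0} : Set Spor.Suz)) = 161280 := KFacts.SuzTwoB.card_CE
  have hn : ¬ IsConj z0 e0 := by
    intro hc
    have h3 := card_conj hc
    rw [h1, h2] at h3
    omega
  refine le_trans (by decide) (count_two (G := Spor.Suz) z_sq KFacts.SuzR.z_ne e0_sq e0_ne hn {3, 5}
    {1, 3, 5, 7, 11, 13} ?_ ?_ (by decide) (by decide))
  · intro p hp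
    rw [h1, h2]
    simp only [Finset.mem_insert, Finset.mem_singleton] at hp
    rcases hp with rfl | rfl <;> norm_num
  · have hd : ∀ p, p.Prime → p ∣ 448345497600 → HasOrd Spor.Suz p := fun p hp hd => hasOrd_prime hp (by rwa [hcard])
    intro m hm
    simp only [Finset.mem_insert, Finset.mem_singleton] at hm
    rcases hm with rfl | rfl | rfl | rfl | rfl | rfl
    · exact hasOrd_one _
    · exact hd 3 (by norm_num) (by norm_num)
    · exact hd 5 (by norm_num) (by norm_num)
    · exact hd 7 (by norm_num) (by norm_num)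
    · exact hd 11 (by norm_num) (by norm_num)
    · exact hd 13 (by norm_num) (by norm_num)

theorem suz {S : Type*} [Group S] (h : Spor.IsoSuz S) : 12 ≤ Nat.card (ConjClasses S) := by
  have hfin : Finite Spor.Suz := KFacts.SuzSheetE.finite_suz
  obtain ⟨e⟩ := h
  have := Finite.of_equiv _ e.symm.toEquiv
  rw [card_classes_congr e]
  exact suz_model

end Cfsg.Agent.H771.KSuz
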