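import Cfsg.Agent.H299.Cons
import Cfsg.Agent.H46.CompSuz
import Cfsg.Agent.H46.CompCo3
import Cfsg.Agent.H46.CompHN
import Cfsg.Agent.H46.CompA12
import Cfsg.Agent.ThFive.Main
import Cfsg.Agent.NotCT.Orders

/-!
# `A₁₂`, `Suz`, `Co₃`, `HN` are not of characteristic 2 type; the row `Th`
-/

set_option autoImplicit false

namespace Cfsg.Agent.H771.RowNC

open Cfsg Subgroup Cfsg.Agent.H299 Cfsg.Agent.H46

universe u

theorem not_char2_a12 {S : Type u} [Group S] (e : S ≃* alternatingGroup (Fin 12)) : ¬ Cfsg.IsCharacteristicTwoType S := by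
  have : Finite S := Finite.of_equiv _ e.symm.toEquiv
  exact (hasComp_alt ⟨12, by norm_num, ⟨e⟩⟩).not_charTwo

theorem not_char2_suz {S : Type u} [Group S] (e : Cfsg.Spor.IsoSuz S) : ¬ Cfsg.IsCharacteristicTwoType S := by
  have : Finite S := Nat.finite_of_card_ne_zero (by rw [NotCT.Orders.suz e]; norm_num)
  exact (hasComp_suz e).not_charTwo

theorem not_char2_co3 {S : Type u} [Group S] (e : Cfsg.Spor.IsoCo3 S) : ¬ Cfsg.IsCharacteristicTwoType S := by
  have : Finite S := Nat.finite_of_card_ne_zero (by rw [NotCT.Orders.co3 e]; norm_num)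
  exact (hasComp_co3 e).not_charTwo

theorem not_char2_hn {S : Type u} [Group S] (e : Cfsg.Spor.IsoHN S) : ¬ Cfsg.IsCharacteristicTwoType S := by
  have : Finite S := Nat.finite_of_card_ne_zero (by rw [NotCT.Orders.hn e]; norm_num)
  exact (hasComp_hn e).not_charTwo

/-- elements of order 5 of `L` commute with an involution and with `3 ^ 2` -/
theorem exists_five {S : Type u} [Group S] {b : S} {L : Subgroup S} (h : In S b L) :
    ∃ z s : S, orderOf z = 5 ∧ orderOf s = 2 ∧ z * s = s * z ∧ 9 ∣ Nat.card (centralizer ({z} : Set S)) := by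
  have hfin := h.fin
  have hfL := h.facts.fin
  have : Fact (Nat.Prime 5) := ⟨by norm_num⟩
  have : Fact (Nat.Prime 3) := ⟨by norm_num⟩
  obtain ⟨z, y, hz, hy, hzy⟩ := h.facts2.fifteen
  obtain ⟨t, ht1, ht2, h5, -⟩ := h.facts.transv
  obtain ⟨w, hw⟩ := exists_prime_orderOf_dvd_card' (G := ↥(centralizer ({t} : Set L))) 5 h5
  have hw' : orderOf (w : L) = 5 := by rw [Subgroup.orderOf_coe, hw]
  -- Sylow
  have hbc : ∀ l ∈ L, l * b = b * l := by
    intro l hl
    have h1 := h.fix l hl
    rw [MulAut.conj_apply] at h1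
    exact (mul_inv_eq_iff_eq_mul.1 h1).symm
  have hcard : Nat.card L = 1451520 := h.facts.card
  have hP : ∀ g : L, orderOf g = 5 → Nat.card (zpowers g) = 5 ^ (Nat.card L).factorization 5 := by
    intro g hg
    rw [Nat.card_zpowers, hg, hcard]
    have : (1451520 : ℕ).factorization 5 = 1 := by
      rw [show (1451520 : ℕ) = 5 * 290304 by norm_num, Nat.factorization_mul (by norm_num) (by norm_num)]
      rw [Finsupp.add_apply, Nat.Prime.factorization_self (by norm_num),
        Nat.factorization_eq_zero_of_not_dvd (by norm_num)]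
    rw [this, pow_one]
  let P : Sylow 5 L := Sylow.ofCard (zpowers z) (hP z hz)
  let Q : Sylow 5 L := Sylow.ofCard (zpowers (w : L)) (hP _ hw')
  obtain ⟨g, hg⟩ := MulAction.exists_smul_eq L Q P
  have hgw : g * (w : L) * g⁻¹ ∈ zpowers z := by
    have h1 : ((g • Q : Sylow 5 L) : Subgroup L) = zpowers z := by rw [hg]; rfl
    rw [← h1]
    exact ⟨w, mem_zpowers (w : L), rfl⟩
  have hwt : (w : L) * t = t * w := mem_centralizer_singleton_iff.1 w.2
  set w' : L := g * w * g⁻¹ with hw'def
  set t' : L := g * t * g⁻¹ with ht'def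
  have how' : orderOf w' = 5 := by
    rw [hw'def, ← hw', show g * (w : L) * g⁻¹ = MulAut.conj g w from rfl]
    exact MulEquiv.orderOf_eq (MulAut.conj g) (w : L)
  have hwt' : w' * t' = t' * w' := by
    rw [hw'def, ht'def]
    calc g * w * g⁻¹ * (g * t * g⁻¹) = g * (w * t) * g⁻¹ := by group
      _ = g * (t * w) * g⁻¹ := by rw [hwt]
      _ = _ := by group
  have ht'1 : t' ≠ 1 := by
    rw [ht'def]
    intro h1
    exact ht1 (conj_eq_one_iff.1 h1)
  have ht'2 : t' * t' = 1 := by
    rw [ht'def]
    calc g * t * g⁻¹ * (g * t * g⁻¹) = g * (t * t) * g⁻¹ := by group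
      _ = 1 := by rw [ht2]; group
  refine ⟨(w' : S), (t' : S), by rw [Subgroup.orderOf_coe, how'], ?_, congrArg Subtype.val hwt', ?_⟩
  · rw [Subgroup.orderOf_coe]
    exact orderOf_eq_prime (by rw [pow_two]; exact ht'2) ht'1
  -- the subgroup `⟨b, y⟩`
  · have hw'y : w' * y = y * w' := by
      obtain ⟨k, hk⟩ := hgw
      have h1 : w' = z ^ k := hk.symm
      rw [h1]
      exact (show Commute z y from hzy).zpow_left k
    have hyb : (y : S) * b = b * y := hbc y y.2
    have hoy : orderOf (y : S) = 3 := by rw [Subgroup.orderOf_coe, hy]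
    let f : ↥(zpowers (y : S)) × ↥(zpowers b) →* S := MonoidHom.noncommCoprod (zpowers (y : S)).subtype (zpowers b).subtype
      (fun a c => by
        obtain ⟨_, k, rfl⟩ := a
        obtain ⟨_, l, rfl⟩ := c
        exact ((show Commute (y : S) b from hyb).zpow_right l).zpow_left k)
    have hf1 : ∀ a c, f (a, c) = (a : S) * c := fun a c => rfl
    have hf : Function.Injective f := by
      rw [injective_iff_map_eq_one]
      rintro ⟨a, c⟩ h1
      rw [hf1] at h1
      have haL : (a : S) ∈ L := by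
        obtain ⟨_, k, rfl⟩ := a
        exact zpow_mem y.2 k
      have hc : (c : S) ∈ L := by
        rw [show (c : S) = (a : S)⁻¹ from (eq_inv_of_mul_eq_one_right h1)]
        exact inv_mem haL
      have hc1 : (c : S) = 1 := by
        refine h.center_trivial hc fun x hx => ?_
        obtain ⟨_, k, rfl⟩ := c
        exact ((show Commute x b from hbc x hx).zpow_right k).symm
      rw [hc1, mul_one] at h1
      exact Prod.ext (Subtype.ext h1) (Subtype.ext hc1)
    have hfC : f.range ≤ centralizer ({(w' : S)} : Set S) := by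
      rintro _ ⟨⟨a, c⟩, rfl⟩
      rw [hf1, mem_centralizer_singleton_iff]
      obtain ⟨_, k, rfl⟩ := a
      obtain ⟨_, l, rfl⟩ := c
      have h1 : Commute (w' : S) (y : S) := congrArg Subtype.val hw'y
      have h2 : Commute (w' : S) b := hbc w' w'.2
      exact ((h1.zpow_right k).mul_right (h2.zpow_right l)).symm
    have h9 : Nat.card f.range = 9 := by
      rw [← Nat.card_congr (MonoidHom.ofInjective hf).toEquiv, Nat.card_prod, Nat.card_zpowers, Nat.card_zpowers,
        hoy, h.ob]
    rw [← h9]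
    exact Subgroup.card_dvd_of_le hfC

theorem th {S : Type u} [Group S] (e : Cfsg.Spor.IsoTh S) {b : S} {L : Subgroup S} (h : Cfsg.Agent.H299.In S b L) : False := by
  obtain ⟨z, s, hz, hs, hzs, h9⟩ := exists_five h
  obtain ⟨e⟩ := e
  exact Cfsg.Agent.ThFive.not_nine_iso e hz hs hzs h9

end Cfsg.Agent.H771.RowNC
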